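import Mathlib
import Cfsg.Agent.H154.PQE.Lev

/-!
# S4612, `E₇(q)`, primes of orders 5 and 10: the double coset of the longest element (helper154)
-/

set_option autoImplicit false
set_option linter.unusedSectionVars false
set_option maxRecDepth 100000

namespace Cfsg.Agent.H154.PQE

open CoxeterSystem Cfsg Cfsg.Lie Cfsg.Lie.ChevalleyDatum
open Cfsg.Agent.ChevalleyStructure Cfsg.Agent.ChevalleyStructure.Elts Cfsg.Agent.ChevalleyStructure.CoxeterGeom
  Cfsg.Agent.ChevalleyStructure.CoxeterGeomTypes Cfsg.Agent.ChevalleyStructure.RootVec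
  Cfsg.Agent.ChevalleyStructure.RootVecTab Cfsg.Agent.ChevalleyStructure.NPerm
open Cfsg.Agent.Tits.Roots Cfsg.Agent.Tits.Core Cfsg.Agent.Nodes Cfsg.Agent.Nodes.Reps Cfsg.Agent.Nodes.BNOf
  Cfsg.Agent.Nodes.RGDChev Cfsg.Agent.H35.ExcIdx Cfsg.Agent.Nodes.StabComb Cfsg.Agent.Nodes.Bruhat
  Cfsg.Agent.Nodes.LeviDec Cfsg.Agent.Nodes.OppDec Cfsg.Agent.H739.PQ.E7
open scoped Matrix

universe u

variable {K : Type u} [Field K]

theorem sum_sr (x : Fin 7 → ℤ) : x = ∑ k, x k • (sr k : Fin 7 → ℤ) := by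
  funext j
  simp [Finset.sum_apply, sr, Pi.single_apply]

theorem rep_word (ω : List (Fin 7)) {r : ℕ} (hr : r < chevE7.nroots) :
    ω.foldr (fun (i : Fin 7) r => chevE7.reflectRoot (i : ℕ) r) r < chevE7.nroots ∧
    rep cs7 hpE7.isCartan (cs7.wordProd ω) (vec chevE7 7 r) =
      vec chevE7 7 (ω.foldr (fun (i : Fin 7) r => chevE7.reflectRoot (i : ℕ) r) r) := by
  induction ω with
  | nil =>
    refine ⟨hr, ?_⟩
    rw [wordProd_nil, map_one, Module.End.one_apply]
    rfl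
  | cons i ω ih =>
    rw [List.foldr_cons]
    refine ⟨reflectRoot_lt hpE7.inList (lt_rank hpE7 i) ih.1, ?_⟩
    rw [wordProd_cons, rep_mul_apply, ih.2, rep_vec hpE7 cs7 i ih.1]

/-- the longest element acts as `-1` -/
theorem exists_w0 : ∃ w : CoxeterMatrix.E₇.Group, ∀ x, rep cs7 hpE7.isCartan w x = -x := by
  refine ⟨cs7.wordProd w0word, fun x => ?_⟩
  have h1 : ∀ k : Fin 7, rep cs7 hpE7.isCartan (cs7.wordProd w0word) (sr k) = -sr k := by
    intro k
    have hs := simple_lt hpE7.inList (lt_rank hpE7 k)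
    rw [← vec_simple hpE7 k, (rep_word w0word hs).2, w0_check k, vec_neg hpE7 hs]
  conv_lhs => rw [sum_sr x]
  conv_rhs => rw [sum_sr x]
  rw [map_sum, ← Finset.sum_neg_distrib]
  refine Finset.sum_congr rfl fun k _ => ?_
  rw [map_smul, h1, smul_neg]

theorem w0_inv {w : CoxeterMatrix.E₇.Group} (hw : ∀ x, rep cs7 hpE7.isCartan w x = -x) (x : Fin 7 → ℤ) :
    rep cs7 hpE7.isCartan w⁻¹ x = -x := by
  have h1 : rep cs7 hpE7.isCartan w⁻¹ (rep cs7 hpE7.isCartan w (-x)) = -x := rep_inv_apply _ _ _ _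
  rwa [hw, _root_.neg_neg] at h1

variable {p : ℕ} (R : RGD cs7 hpE7.isCartan p (TT chevE7 K) (nc K) (XX chevE7 7 K))

include R

theorem cj_LL {w : CoxeterMatrix.E₇.Group} (hw : ∀ x, rep cs7 hpE7.isCartan w x = -x) {k : ↥(chevE7.group K)}
    (hk : Rp cs7 R.nsys w k) : cj k (LL K) ≤ LL K := by
  unfold LL LJ
  rw [cj_sup, cj_T R hk]
  refine sup_le_sup_left (cj_Sup_le R hk (fun x hx => hx.1) fun x hx => ?_) _
  rw [hw]
  exact RootsJ.neg hx

theorem cj_VV {w : CoxeterMatrix.E₇.Group} (hw : ∀ x, rep cs7 hpE7.isCartan w x = -x) {k : ↥(chevE7.group K)}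
    (hk : Rp cs7 R.nsys w k) : cj k (VV K) ≤ VNJ cs7 hpE7.isCartan (XX chevE7 7 K) JQ := by
  unfold VV VJ VNJ
  refine cj_Sup_le R hk (fun x hx => hx.1) fun x hx => ?_
  rw [hw]
  show - -x ∈ NotJ cs7 hpE7.isCartan JQ
  rwa [_root_.neg_neg]

theorem mem_LL_of_conj {w : CoxeterMatrix.E₇.Group} (hw : ∀ x, rep cs7 hpE7.isCartan w x = -x)
    {k : ↥(chevE7.group K)} (hk : Rp cs7 R.nsys w k) {z : ↥(chevE7.group K)} (hz : z ∈ QQ K)
    (hz' : k⁻¹ * z * k ∈ QQ K) : z ∈ LL K := by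
  have hfin := finite_W hpE7 cs7
  unfold LL
  rw [← PJ_inf_PNJ R JQ]
  refine ⟨hz, (mem_PNJ R).2 ?_⟩
  obtain ⟨l, hl, v, hv, e⟩ := (mem_PJ R).1 hz'
  refine ⟨k * l * k⁻¹, cj_LL R hw hk (conj_mem_cj.2 hl), k * v * k⁻¹, cj_VV R hw hk (conj_mem_cj.2 hv), ?_⟩
  have h1 : z = k * (k⁻¹ * z * k) * k⁻¹ := by group
  rw [h1, e]
  group

theorem conj_mem_LL {w : CoxeterMatrix.E₇.Group} (hw : ∀ x, rep cs7 hpE7.isCartan w x = -x)
    {k : ↥(chevE7.group K)} (hk : Rp cs7 R.nsys w k) {z : ↥(chevE7.group K)} (hz : z ∈ LL K) :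
    k⁻¹ * z * k ∈ LL K := by
  have h1 := cj_LL R (w0_inv hw) hk.inv (conj_mem_cj.2 hz)
  rwa [inv_inv] at h1

theorem opp_of_rp {w : CoxeterMatrix.E₇.Group} (hw : ∀ x, rep cs7 hpE7.isCartan w x = -x)
    {k : ↥(chevE7.group K)} (hk : Rp cs7 R.nsys w k) : Opp (rho K) k := by
  constructor
  · intro z hz
    have hL : (z : ↥(chevE7.group K)) ∈ LL K := mem_LL_of_conj R hw hk z.2 hz
    have hM : Mon w (k : GL chevE7.Idx K) := mon_of_rp hk
    have hM' : Mon w⁻¹ ((k⁻¹ : ↥(chevE7.group K)) : GL chevE7.Idx K) := mon_of_rp hk.inv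
    -- the entries of `k` and of its inverse
    have hk1 : ∀ b j, ((k : GL chevE7.Idx K) : Matrix chevE7.Idx chevE7.Idx K) b (fo j) ≠ 0 → b = fn j := by
      intro b j hb
      have h1 := hM b (fo j) hb
      rw [hw, ← wt_fn] at h1
      exact (wt_inj h1.symm (by rw [wt_fn, neg_ne_zero, wt_fo]; exact vec_ne_zero (io_lt j))).symm
    have hk2 : ∀ a i, (((k⁻¹ : ↥(chevE7.group K)) : GL chevE7.Idx K) : Matrix chevE7.Idx chevE7.Idx K) (fo i) a ≠ 0 →
        a = fn i := by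
      intro a i ha
      have h1 := hM' (fo i) a ha
      rw [w0_inv hw, eq_neg_iff_add_eq_zero, add_comm, ← eq_neg_iff_add_eq_zero, ← wt_fn] at h1
      exact (wt_inj h1.symm (by rw [wt_fn, neg_ne_zero, wt_fo]; exact vec_ne_zero (io_lt i))).symm
    have hr : ∀ (M : Matrix chevE7.Idx chevE7.Idx K) a j,
        (M * ((k : GL chevE7.Idx K) : Matrix chevE7.Idx chevE7.Idx K)) a (fo j) =
          M a (fn j) * ((k : GL chevE7.Idx K) : Matrix chevE7.Idx chevE7.Idx K) (fn j) (fo j) := by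
      intro M a j
      rw [Matrix.mul_apply, Finset.sum_eq_single (fn j)]
      · intro b _ hb
        have : ((k : GL chevE7.Idx K) : Matrix chevE7.Idx chevE7.Idx K) b (fo j) = 0 := by
          by_contra h
          exact hb (hk1 b j h)
        rw [this, mul_zero]
      · intro h
        exact absurd (Finset.mem_univ _) h
    have hl : ∀ (M : Matrix chevE7.Idx chevE7.Idx K) i b,
        ((((k⁻¹ : ↥(chevE7.group K)) : GL chevE7.Idx K) : Matrix chevE7.Idx chevE7.Idx K) * M) (fo i) b =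
          (((k⁻¹ : ↥(chevE7.group K)) : GL chevE7.Idx K) : Matrix chevE7.Idx chevE7.Idx K) (fo i) (fn i) * M (fn i) b := by
      intro M i b
      rw [Matrix.mul_apply, Finset.sum_eq_single (fn i)]
      · intro a _ ha
        have : (((k⁻¹ : ↥(chevE7.group K)) : GL chevE7.Idx K) : Matrix chevE7.Idx chevE7.Idx K) (fo i) a = 0 := by
          by_contra h
          exact ha (hk2 a i h)
        rw [this, zero_mul]
      · intro h
        exact absurd (Finset.mem_univ _) h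
    have hed : ∀ i, (((k⁻¹ : ↥(chevE7.group K)) : GL chevE7.Idx K) : Matrix chevE7.Idx chevE7.Idx K) (fo i) (fn i) *
        ((k : GL chevE7.Idx K) : Matrix chevE7.Idx chevE7.Idx K) (fn i) (fo i) = 1 := by
      intro i
      rw [← hr]
      have h1 : (((k⁻¹ : ↥(chevE7.group K)) : GL chevE7.Idx K) : Matrix chevE7.Idx chevE7.Idx K) *
          ((k : GL chevE7.Idx K) : Matrix chevE7.Idx chevE7.Idx K) = 1 := by
        rw [← Units.val_mul, ← Subgroup.coe_mul, inv_mul_cancel, Subgroup.coe_one, Units.val_one]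
      rw [h1, Matrix.one_apply_eq]
    -- the conjugating element
    let c : GL (Fin 5) K :=
      ⟨Matrix.diagonal fun i => ((k : GL chevE7.Idx K) : Matrix chevE7.Idx chevE7.Idx K) (fn i) (fo i),
        Matrix.diagonal fun i => (((k⁻¹ : ↥(chevE7.group K)) : GL chevE7.Idx K) : Matrix chevE7.Idx chevE7.Idx K) (fo i) (fn i),
        by
          rw [Matrix.diagonal_mul_diagonal, ← Matrix.diagonal_one]
          congr 1
          funext i
          rw [mul_comm]
          exact hed i,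
        by
          rw [Matrix.diagonal_mul_diagonal, ← Matrix.diagonal_one]
          congr 1
          funext i
          exact hed i⟩
    have hc : (c : Matrix (Fin 5) (Fin 5) K) =
      Matrix.diagonal fun i => ((k : GL chevE7.Idx K) : Matrix chevE7.Idx chevE7.Idx K) (fn i) (fo i) := rfl
    have hτ : tau (rho K z) = blk ixn ⟨z, LL_le hL⟩ := (blk_tau hL (LL_le hL)).symm
    rw [hτ]
    refine isConj_iff.2 ⟨c, ?_⟩
    rw [mul_inv_eq_iff_eq_mul]
    apply Units.ext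
    ext i j
    rw [Units.val_mul, Units.val_mul, hc, Matrix.diagonal_mul, Matrix.mul_diagonal, rho_apply, blk_apply]
    have e1 : (((k⁻¹ * (z : ↥(chevE7.group K)) * k : ↥(chevE7.group K)) : GL chevE7.Idx K) :
        Matrix chevE7.Idx chevE7.Idx K) (fo i) (fo j) =
        (((k⁻¹ : ↥(chevE7.group K)) : GL chevE7.Idx K) : Matrix chevE7.Idx chevE7.Idx K) (fo i) (fn i) *
        (((z : ↥(chevE7.group K)) : GL chevE7.Idx K) : Matrix chevE7.Idx chevE7.Idx K) (fn i) (fn j) *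
        ((k : GL chevE7.Idx K) : Matrix chevE7.Idx chevE7.Idx K) (fn j) (fo j) := by
      rw [Subgroup.coe_mul, Subgroup.coe_mul, Units.val_mul, Units.val_mul, hr, hl]
    show _ * (((k⁻¹ * (z : ↥(chevE7.group K)) * k : ↥(chevE7.group K)) : GL chevE7.Idx K) :
        Matrix chevE7.Idx chevE7.Idx K) (fo i) (fo j) =
        (((z : ↥(chevE7.group K)) : GL chevE7.Idx K) : Matrix chevE7.Idx chevE7.Idx K) (fn i) (fn j) * _
    rw [e1]
    linear_combination ((((z : ↥(chevE7.group K)) : GL chevE7.Idx K) : Matrix chevE7.Idx chevE7.Idx K) (fn i) (fn j) *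
      ((k : GL chevE7.Idx K) : Matrix chevE7.Idx chevE7.Idx K) (fn j) (fo j)) * hed i
  · intro g hg
    obtain ⟨z, hz, e⟩ := exists_of_det hg
    exact ⟨z, LJ_le_PJ (conj_mem_LL R hw hk hz), e⟩

end Cfsg.Agent.H154.PQE
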