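import Mathlib
import Cfsg.Agent.H154.PQE.Opp

/-!
# S4612, `E₇(q)`, primes of orders 5 and 10: the other double cosets (helper154)
-/

set_option autoImplicit false
set_option linter.unusedSectionVars false
set_option maxRecDepth 100000

namespace Cfsg.Agent.H154.PQE

open CoxeterSystem Cfsg Cfsg.Lie Cfsg.Lie.ChevalleyDatum
open Cfsg.Agent.ChevalleyStructure Cfsg.Agent.ChevalleyStructure.Elts Cfsg.Agent.ChevalleyStructure.CoxeterGeom
  Cfsg.Agent.ChevalleyStructure.CoxeterGeomTypes Cfsg.Agent.ChevalleyStructure.RootVec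
  Cfsg.Agent.ChevalleyStructure.RootVecTab Cfsg.Agent.ChevalleyStructure.NPerm
open Cfsg.Agent.Tits.Roots Cfsg.Agent.Tits.Core Cfsg.Agent.Nodes Cfsg.Agent.Nodes.Reps Cfsg.Agent.Nodes.BNOf
  Cfsg.Agent.Nodes.RGDChev Cfsg.Agent.H35.ExcIdx Cfsg.Agent.Nodes.StabComb Cfsg.Agent.Nodes.Bruhat
  Cfsg.Agent.Nodes.LeviDec Cfsg.Agent.Nodes.OppDec Cfsg.Agent.Tits.Exchange Cfsg.Agent.H739.PQ.E7
open scoped Matrix

universe u

variable {K : Type u} [Field K]

/-! ### subspaces spanned by basis vectors -/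

/-- the vectors supported on `P` -/
def coordSub (K : Type u) [Field K] (P : Fin 5 → Prop) : Submodule K (Fin 5 → K) where
  carrier := {v | ∀ i, ¬ P i → v i = 0}
  zero_mem' := fun _ _ => rfl
  add_mem' := fun {a} {b} ha hb i hi => by rw [Pi.add_apply, ha i hi, hb i hi, add_zero]
  smul_mem' := fun c x hx i hi => by rw [Pi.smul_apply, hx i hi, smul_zero]

theorem mem_coordSub {P : Fin 5 → Prop} {v : Fin 5 → K} : v ∈ coordSub K P ↔ ∀ i, ¬ P i → v i = 0 := Iff.rfl

theorem single_mem {P : Fin 5 → Prop} {j : Fin 5} (hj : P j) (c : K) : Pi.single j c ∈ coordSub K P := by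
  intro i hi
  rw [Pi.single_eq_of_ne]
  rintro rfl
  exact hi hj

theorem coordSub_ne_bot {P : Fin 5 → Prop} {j : Fin 5} (hj : P j) : coordSub K P ≠ ⊥ := by
  intro h
  have h1 : (Pi.single j 1 : Fin 5 → K) ∈ coordSub K P := single_mem hj 1
  rw [h, Submodule.mem_bot] at h1
  have h2 := congrFun h1 j
  rw [Pi.single_eq_same, Pi.zero_apply] at h2
  exact one_ne_zero h2

theorem coordSub_ne_top {P : Fin 5 → Prop} {j : Fin 5} (hj : ¬ P j) : coordSub K P ≠ ⊤ := by
  intro h
  have h1 : (Pi.single j 1 : Fin 5 → K) ∈ coordSub K P := by rw [h]; exact Submodule.mem_top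
  have h2 := h1 j hj
  rw [Pi.single_eq_same] at h2
  exact one_ne_zero h2

theorem pres_coordSub {P : Fin 5 → Prop} {g : GL (Fin 5) K}
    (h : ∀ i j, ¬ P i → P j → (g : Matrix (Fin 5) (Fin 5) K) i j = 0) : Pres g (coordSub K P) := by
  intro v hv i hi
  rw [Matrix.mulVec, dotProduct]
  refine Finset.sum_eq_zero fun j _ => ?_
  by_cases hj : P j
  · rw [h i j hi hj, zero_mul]
  · rw [hv j hj, mul_zero]

theorem uni_coordSub {P : Fin 5 → Prop} {u : GL (Fin 5) K} (hu : u ∈ Uni (coordSub K P)) {i j : Fin 5}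
    (h : ((u : Matrix (Fin 5) (Fin 5) K) - 1) i j ≠ 0) : P i ∧ ¬ P j := by
  obtain ⟨h1, h2⟩ := hu
  have hcol : ((u : Matrix (Fin 5) (Fin 5) K) *ᵥ Pi.single j 1) i = (u : Matrix (Fin 5) (Fin 5) K) i j := by
    rw [Matrix.mulVec_single_one]; rfl
  constructor
  · by_contra hi
    apply h
    have h3 := h1 (Pi.single j 1) i hi
    rw [Pi.sub_apply, hcol] at h3
    rw [Matrix.sub_apply, ← h3]
    congr 1
    rw [Matrix.one_apply, Pi.single_apply]
  · intro hj
    apply h
    have h3 := congrFun (h2 (Pi.single j 1) (single_mem hj 1)) i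
    rw [hcol] at h3
    rw [Matrix.sub_apply, h3, Matrix.one_apply, Pi.single_apply, sub_self]

variable {p : ℕ} (R : RGD cs7 hpE7.isCartan p (TT chevE7 K) (nc K) (XX chevE7 7 K))

include R

theorem fil_of_conj {w : CoxeterMatrix.E₇.Group} {k : ↥(chevE7.group K)} (hk : Rp cs7 R.nsys w k)
    {z : ↥(chevE7.group K)} (hz : k⁻¹ * z * k ∈ QQ K) {u s : chevE7.Idx}
    (h : ((z : GL chevE7.Idx K) : Matrix chevE7.Idx chevE7.Idx K) u s ≠ 0) :
    lev (rep cs7 hpE7.isCartan w⁻¹ (wt s)) ≤ lev (rep cs7 hpE7.isCartan w⁻¹ (wt u)) := by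
  have hM : Mon w (k : GL chevE7.Idx K) := mon_of_rp hk
  have hM' : Mon w⁻¹ ((k⁻¹ : ↥(chevE7.group K)) : GL chevE7.Idx K) := mon_of_rp hk.inv
  have hz1 := mem_Fil.1 (Subgroup.mem_subgroupOf.1 (QQ_le hz))
  have h1 : ((z : GL chevE7.Idx K) : Matrix chevE7.Idx chevE7.Idx K) =
      ((k : GL chevE7.Idx K) : Matrix chevE7.Idx chevE7.Idx K) *
      (((k⁻¹ * z * k : ↥(chevE7.group K)) : GL chevE7.Idx K) : Matrix chevE7.Idx chevE7.Idx K) *
      (((k⁻¹ : ↥(chevE7.group K)) : GL chevE7.Idx K) : Matrix chevE7.Idx chevE7.Idx K) := by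
    rw [← Units.val_mul, ← Units.val_mul, ← Subgroup.coe_mul, ← Subgroup.coe_mul]
    congr 2
    group
  rw [h1, Matrix.mul_apply] at h
  obtain ⟨b, -, hb⟩ := Finset.exists_ne_zero_of_sum_ne_zero h
  have hb1 := left_ne_zero_of_mul hb
  have hb2 := right_ne_zero_of_mul hb
  rw [Matrix.mul_apply] at hb1
  obtain ⟨a, -, ha⟩ := Finset.exists_ne_zero_of_sum_ne_zero hb1
  have h2 := hz1 a b (right_ne_zero_of_mul ha)
  have h3 := hM u a (left_ne_zero_of_mul ha)
  have h4 := hM' b s hb2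
  rw [← h4, h3, rep_inv_apply]
  exact h2

theorem bad_of {w : CoxeterMatrix.E₇.Group} {k : ↥(chevE7.group K)} (hk : Rp cs7 R.nsys w k) {a b : Fin 5}
    (hab : lev (rep cs7 hpE7.isCartan w⁻¹ (vec chevE7 7 (io a))) ≠
      lev (rep cs7 hpE7.isCartan w⁻¹ (vec chevE7 7 (io b)))) : Bad (rho K) k := by
  let m : Fin 5 → ℤ := fun i => lev (rep cs7 hpE7.isCartan w⁻¹ (vec chevE7 7 (io i)))
  obtain ⟨i0, -, hi0⟩ := Finset.exists_max_image (Finset.univ : Finset (Fin 5)) m ⟨0, Finset.mem_univ _⟩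
  have hmax : ∀ i, m i ≤ m i0 := fun i => hi0 i (Finset.mem_univ _)
  let P : Fin 5 → Prop := fun i => m i = m i0
  obtain ⟨j0, hj0⟩ : ∃ j, ¬ P j := by
    by_contra hcon
    push Not at hcon
    exact hab ((hcon a).trans (hcon b).symm)
  refine ⟨coordSub K P, coordSub_ne_bot (j := i0) rfl, coordSub_ne_top hj0, ?_, ?_⟩
  · intro z hz
    refine pres_coordSub fun i j hi hj => ?_
    by_contra hne
    have h1 := fil_of_conj R hk hz (u := fo i) (s := fo j) hne
    have h2 : m j ≤ m i := h1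
    have h3 : m j = m i0 := hj
    exact hi (le_antisymm (hmax i) (by rw [← h3]; exact h2))
  · intro u hu
    let A : Matrix (Fin 5) (Fin 5) K → Prop := fun N => (∀ i j, N i j ≠ 0 → P i ∧ ¬ P j) ∧
      ∃ z : ↥(QQ K), k⁻¹ * (z : ↥(chevE7.group K)) * k ∈ KQ K ∧ (rho K z : Matrix (Fin 5) (Fin 5) K) = 1 + N
    have hA0 : A 0 := by
      refine ⟨fun i j h => absurd rfl h, 1, ?_, ?_⟩
      · have : k⁻¹ * ((1 : ↥(QQ K)) : ↥(chevE7.group K)) * k = 1 := by
          rw [Subgroup.coe_one]; group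
        rw [this]
        exact one_mem _
      · rw [map_one, Units.val_one, add_zero]
    have hAadd : ∀ M N, A M → A N → A (M + N) := by
      rintro M N ⟨hM, zM, hzM, eM⟩ ⟨hN, zN, hzN, eN⟩
      have hMN : M * N = 0 := by
        ext i j
        rw [Matrix.mul_apply, Matrix.zero_apply]
        refine Finset.sum_eq_zero fun l _ => ?_
        by_contra hne
        exact (hM i l (left_ne_zero_of_mul hne)).2 (hN l j (right_ne_zero_of_mul hne)).1
      refine ⟨fun i j h => ?_, zM * zN, ?_, ?_⟩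
      · by_cases h1 : M i j = 0
        · rw [Matrix.add_apply, h1, zero_add] at h
          exact hN i j h
        · exact hM i j h1
      · have : k⁻¹ * ((zM * zN : ↥(QQ K)) : ↥(chevE7.group K)) * k =
            (k⁻¹ * (zM : ↥(chevE7.group K)) * k) * (k⁻¹ * (zN : ↥(chevE7.group K)) * k) := by
          rw [Subgroup.coe_mul]; group
        rw [this]
        exact mul_mem hzM hzN
      · rw [map_mul, Units.val_mul, eM, eN, mul_add, mul_one, add_mul, one_mul, hMN, add_zero, add_assoc]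
    have hAs : ∀ i j c, (c ≠ 0 → P i ∧ ¬ P j) → A (Matrix.single i j c) := by
      intro i j c hc
      by_cases hc0 : c = 0
      · rw [hc0, Matrix.single_zero]
        exact hA0
      · obtain ⟨hi, hj⟩ := hc hc0
        have hij : i ≠ j := by
          rintro rfl
          exact hj hi
        obtain ⟨z, -, hz, e⟩ := exists_transv hij c
        refine ⟨fun i' j' h => ?_, z, ?_, e⟩
        · by_cases h1 : i' = i ∧ j' = j
          · rw [h1.1, h1.2]
            exact ⟨hi, hj⟩
          · exact absurd (Matrix.single_apply_of_ne i j c i' j' (fun h2 => h1 ⟨h2.1.symm, h2.2.symm⟩)) h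
        · have hr := (rij_mem hij).1
          refine XX_le_KQ (hr.act w⁻¹) ?_ (R.conj_mem' hk hr hz)
          have h1 : vec chevE7 7 (rij i j) = vec chevE7 7 (io i) - vec chevE7 7 (io j) := by
            rw [vec_rij hij, add_sub_cancel_left]
          rw [h1, map_sub, map_sub, sub_pos]
          have h2 : m j ≠ m i0 := hj
          have h3 : m i = m i0 := hi
          have h4 : m j < m i := by
            rw [h3]
            exact lt_of_le_of_ne (hmax j) h2
          exact h4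
    have hAu : A ((u : Matrix (Fin 5) (Fin 5) K) - 1) := by
      rw [Matrix.matrix_eq_sum_single ((u : Matrix (Fin 5) (Fin 5) K) - 1)]
      refine Finset.sum_induction _ A hAadd hA0 fun i _ => ?_
      refine Finset.sum_induction _ A hAadd hA0 fun j _ => ?_
      exact hAs i j _ fun h => uni_coordSub hu h
    obtain ⟨-, z, hz, e⟩ := hAu
    obtain ⟨hz1, hz2⟩ := mem_KQ.1 hz
    refine ⟨z, hz1, Units.ext ?_, hz2⟩
    rw [e, add_sub_cancel]

end Cfsg.Agent.H154.PQE
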