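import Mathlib
import Cfsg.Agent.H35.ExcIdx
import Cfsg.Agent.ChevalleyStructure.TorusConj
import Cfsg.Agent.ChevalleyStructure.NConj
import Cfsg.Agent.ChevalleyStructure.HMatDiagAll

/-!
# S4612, `E₇(q)`, primes of orders 5 and 10: weights (task T5 of helper739, helper154)

`wt` : the weight of a basis vector of the adjoint module; `entry_self`, `entry_ne` : the entries of `x_r(t)`;
`Mon w g` : `g` maps the weight spaces to the weight spaces by `w`; `mon_of_rp`; `Fil φ` : the filtration by a functional.
-/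

set_option autoImplicit false
set_option linter.unusedSectionVars false
set_option maxRecDepth 100000

namespace Cfsg.Agent.H154.PQE

open CoxeterSystem Cfsg Cfsg.Lie Cfsg.Lie.ChevalleyDatum
open Cfsg.Agent.ChevalleyStructure Cfsg.Agent.ChevalleyStructure.Elts Cfsg.Agent.ChevalleyStructure.CoxeterGeom
  Cfsg.Agent.ChevalleyStructure.CoxeterGeomTypes Cfsg.Agent.ChevalleyStructure.RootVec
  Cfsg.Agent.ChevalleyStructure.RootVecTab Cfsg.Agent.ChevalleyStructure.NPerm
open Cfsg.Agent.Tits.Roots Cfsg.Agent.Tits.Core Cfsg.Agent.Nodes Cfsg.Agent.Nodes.Reps Cfsg.Agent.Nodes.BNOf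
  Cfsg.Agent.Nodes.RGDChev Cfsg.Agent.H35.ExcIdx

universe u

/-- the Coxeter system -/
abbrev cs7 : CoxeterSystem CoxeterMatrix.E₇ CoxeterMatrix.E₇.Group := CoxeterMatrix.E₇.toCoxeterSystem

/-- the weight of a basis vector -/
def wt : chevE7.Idx → (Fin 7 → ℤ)
  | Sum.inl _ => 0
  | Sum.inr s => vec chevE7 7 s

theorem wt_inl (i : Fin chevE7.rank) : wt (Sum.inl i) = 0 := rfl
theorem wt_inr (s : Fin chevE7.nroots) : wt (Sum.inr s) = vec chevE7 7 s := rfl

theorem vec_ne_zero {r : ℕ} (hr : r < chevE7.nroots) : vec chevE7 7 r ≠ 0 := (isRoot_vec hpE7 cs7 hr).ne_zero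

theorem exists_idx {a : Fin 7 → ℤ} (ha : IsRoot cs7 hpE7.isCartan a) : ∃ s : Fin chevE7.nroots, vec chevE7 7 s = a := by
  obtain ⟨r, hr, rfl⟩ := (isRoot_iff hpE7 cs7 a).1 ha
  exact ⟨⟨r, hr⟩, rfl⟩

theorem wt_inj {i j : chevE7.Idx} (h : wt i = wt j) (hi : wt i ≠ 0) : i = j := by
  rcases i with i | i
  · exact absurd rfl hi
  · rcases j with j | j
    · exact absurd h hi
    · exact congrArg Sum.inr (Fin.ext (vec_inj hpE7 i.2 j.2 h))

variable {K : Type u} [Field K]

theorem chain_wt {r s u : ℕ} {km : ℕ × ℤ} (hkm : km ∈ chevE7.chainCoeff r s u) :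
    0 < km.1 ∧ vec chevE7 7 u = vec chevE7 7 s + (km.1 : ℤ) • vec chevE7 7 r := by
  constructor
  · simp only [ChevalleyDatum.chainCoeff, List.mem_flatMap, List.mem_map] at hkm
    obtain ⟨e, -, q, -, rfl⟩ := hkm
    exact Nat.succ_pos _
  · obtain ⟨_, h2⟩ := TorusConj.chainCoeff_wt hpE7.checked hkm
    funext j
    rw [Pi.add_apply, Pi.smul_apply, smul_eq_mul]
    exact h2 j

theorem chain_self {r : ℕ} (hr : r < chevE7.nroots) (s : ℕ) : chevE7.chainCoeff r s s = [] := by
  rcases hl : chevE7.chainCoeff r s s with _ | ⟨km, l⟩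
  · rfl
  · exfalso
    have hkm : km ∈ chevE7.chainCoeff r s s := by rw [hl]; exact List.mem_cons_self
    obtain ⟨h0, h1⟩ := chain_wt hkm
    have h2 : (km.1 : ℤ) • vec chevE7 7 r = 0 := add_eq_left.1 h1.symm
    rcases smul_eq_zero.1 h2 with h3 | h3
    · omega
    · exact vec_ne_zero hr h3

theorem entry_self (r : Fin chevE7.nroots) (t : K) (i : chevE7.Idx) : chevE7.xMat K r t i i = 1 := by
  rcases i with i | s
  · show (if i = i then (1 : K) else 0) = 1
    rw [if_pos rfl]
  · by_cases hsr : s = r
    · show (if s = r then (if s = r then (1 : K) else 0) else _) = _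
      rw [if_pos hsr, if_pos hsr]
    · show (if s = r then (if s = r then (1 : K) else 0) else if s.val = chevE7.negIdx.getD r.val 0 then
        (if s = s then 1 else if s = r then -(t ^ 2) else 0) else
        (if s = s then 1 else 0) + ((chevE7.chainCoeff r.val s.val s.val).map fun km => ((km.2 : ℤ) : K) * t ^ km.1).sum) = _
      rw [if_neg hsr, if_pos rfl, if_pos rfl, chain_self r.2]
      simp

theorem entry_ne (r : Fin chevE7.nroots) (t : K) {i k : chevE7.Idx} (hik : i ≠ k) (h : chevE7.xMat K r t i k ≠ 0) :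
    ∃ m : ℕ, 0 < m ∧ wt i = wt k + (m : ℤ) • vec chevE7 7 r := by
  rcases k with k | s
  · rcases i with i | u
    · exfalso
      apply h
      show (if i = k then (1 : K) else 0) = 0
      rw [if_neg (fun e => hik (congrArg Sum.inl e))]
    · by_cases hu : u = r
      · exact ⟨1, one_pos, by rw [wt_inl, wt_inr, hu]; simp⟩
      · exfalso
        apply h
        show (if u = r then - (((chevE7.cartanSR.getD k.val #[]).getD r.val 0 : ℤ) : K) * t else 0) = _
        rw [if_neg hu]
  · by_cases hsr : s = r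
    · exfalso
      apply h
      rcases i with i | u
      · show (if s = r then (0 : K) else _) = _
        rw [if_pos hsr]
      · show (if s = r then (if u = r then (1 : K) else 0) else _) = _
        rw [if_pos hsr, if_neg]
        rintro rfl
        exact hik (congrArg Sum.inr hsr.symm)
    · by_cases hsn : s.val = chevE7.negIdx.getD r.val 0
      · have hneg : vec chevE7 7 s = -vec chevE7 7 r := by
          rw [hsn]; exact vec_neg hpE7 r.2
        rcases i with i | u
        · exact ⟨1, one_pos, by rw [wt_inl, wt_inr, hneg]; simp⟩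
        · have hus : u ≠ s := fun e => hik (congrArg Sum.inr e)
          by_cases hur : u = r
          · refine ⟨2, two_pos, ?_⟩
            rw [wt_inr, wt_inr, hneg, hur]
            push_cast
            rw [two_smul]
            abel
          · exfalso
            apply h
            show (if s = r then (if u = r then (1 : K) else 0) else if s.val = chevE7.negIdx.getD r.val 0 then
              (if u = s then 1 else if u = r then -(t ^ 2) else 0) else _) = _
            rw [if_neg hsr, if_pos hsn, if_neg hus, if_neg hur]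
      · rcases i with i | u
        · exfalso
          apply h
          show (if s = r then (0 : K) else if s.val = chevE7.negIdx.getD r.val 0 then
              (((chevE7.coroot.getD r.val #[]).getD i.val 0 : ℤ) : K) * t else 0) = _
          rw [if_neg hsr, if_neg hsn]
        · have hus : u ≠ s := fun e => hik (congrArg Sum.inr e)
          rcases hl : chevE7.chainCoeff r.val s.val u.val with _ | ⟨km, l⟩
          · exfalso
            apply h
            show (if s = r then (if u = r then (1 : K) else 0) else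
              if s.val = chevE7.negIdx.getD r.val 0 then _ else (if u = s then 1 else 0) +
              ((chevE7.chainCoeff r.val s.val u.val).map fun km => ((km.2 : ℤ) : K) * t ^ km.1).sum) = _
            rw [if_neg hsr, if_neg hsn, if_neg hus, hl]
            simp
          · have hkm : km ∈ chevE7.chainCoeff r.val s.val u.val := by rw [hl]; exact List.mem_cons_self
            obtain ⟨h0, h1⟩ := chain_wt hkm
            exact ⟨km.1, h0, h1⟩

/-! ### the filtration -/

/-- the matrices preserving the filtration by the functional `φ` -/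
def Fil (K : Type u) [Field K] (φ : (Fin 7 → ℤ) →+ ℤ) : Subgroup (GL chevE7.Idx K) where
  carrier := {g | (g : Matrix chevE7.Idx chevE7.Idx K).BlockTriangular fun i => -φ (wt i)}
  mul_mem' := fun {x} {y} hx hy => by
    change ((x : Matrix chevE7.Idx chevE7.Idx K) * (y : Matrix chevE7.Idx chevE7.Idx K)).BlockTriangular _
    exact Matrix.BlockTriangular.mul hx hy
  one_mem' := by
    change (1 : Matrix chevE7.Idx chevE7.Idx K).BlockTriangular _
    exact Matrix.blockTriangular_one
  inv_mem' := fun {x} hx => by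
    change ((x⁻¹ : GL chevE7.Idx K) : Matrix chevE7.Idx chevE7.Idx K).BlockTriangular _
    have : Invertible (x : Matrix chevE7.Idx chevE7.Idx K) := x.invertible
    rw [Matrix.coe_units_inv]
    exact Matrix.blockTriangular_inv_of_blockTriangular hx

theorem mem_Fil {φ : (Fin 7 → ℤ) →+ ℤ} {g : GL chevE7.Idx K} :
    g ∈ Fil K φ ↔ ∀ i k, (g : Matrix chevE7.Idx chevE7.Idx K) i k ≠ 0 → φ (wt k) ≤ φ (wt i) := by
  constructor
  · intro hg i k h
    by_contra hc
    exact h (hg (show -φ (wt k) < -φ (wt i) by omega))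
  · intro hg i k hik
    have hik' : -φ (wt k) < -φ (wt i) := hik
    by_contra hc
    have := hg i k hc
    omega

theorem xG_mem_Fil {φ : (Fin 7 → ℤ) →+ ℤ} {r : ℕ} (hr : r < chevE7.nroots) (h0 : 0 ≤ φ (vec chevE7 7 r)) (t : K) :
    xG hpE7.inList r t ∈ Fil K φ := by
  rw [mem_Fil]
  intro i k h
  by_cases hik : i = k
  · rw [hik]
  · rw [coe_xG] at h
    have h1 : chevE7.x K r t = chevE7.xMat K ⟨r, hr⟩ t := by
      unfold ChevalleyDatum.x
      rw [dif_pos hr]
    rw [h1] at h
    obtain ⟨m, hm, e⟩ := entry_ne ⟨r, hr⟩ t hik h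
    rw [e, map_add, map_zsmul, smul_eq_mul]
    have : 0 ≤ (m : ℤ) * φ (vec chevE7 7 r) := mul_nonneg (by positivity) h0
    linarith

theorem torus_mem_Fil {φ : (Fin 7 → ℤ) →+ ℤ} {g : GL chevE7.Idx K} (hg : g ∈ chevE7.diagonalSubgroup K) :
    g ∈ Fil K φ := by
  obtain ⟨χ, h⟩ := HMatDiagAll.mem_torus.1 (HMatDiagAll.diagonalSubgroup_le_torus hpE7.inList hg)
  rw [mem_Fil]
  intro i k h1
  rw [h] at h1
  by_cases hik : i = k
  · rw [hik]
  · exact absurd (Matrix.diagonal_apply_ne _ hik) h1

/-! ### representatives of the elements of the Weyl group -/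

/-- `g` maps the weight spaces to the weight spaces by `w` -/
def Mon (w : CoxeterMatrix.E₇.Group) (g : GL chevE7.Idx K) : Prop :=
  ∀ i k, (g : Matrix chevE7.Idx chevE7.Idx K) i k ≠ 0 → wt i = rep cs7 hpE7.isCartan w (wt k)

theorem Mon.mul {v w : CoxeterMatrix.E₇.Group} {g h : GL chevE7.Idx K} (hg : Mon v g) (hh : Mon w h) :
    Mon (v * w) (g * h) := by
  intro i k hik
  rw [Units.val_mul, Matrix.mul_apply] at hik
  obtain ⟨j, -, hj⟩ := Finset.exists_ne_zero_of_sum_ne_zero hik
  rw [rep_mul_apply, ← hh j k (right_ne_zero_of_mul hj)]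
  exact hg i j (left_ne_zero_of_mul hj)

theorem mon_torus {g : GL chevE7.Idx K} (hg : g ∈ chevE7.diagonalSubgroup K) : Mon 1 g := by
  obtain ⟨χ, h⟩ := HMatDiagAll.mem_torus.1 (HMatDiagAll.diagonalSubgroup_le_torus hpE7.inList hg)
  intro i k h1
  rw [h] at h1
  by_cases hik : i = k
  · rw [hik, map_one, Module.End.one_apply]
  · exact absurd (Matrix.diagonal_apply_ne _ hik) h1

theorem mon_nn (i : Fin 7) : Mon (cs7.simple i) (nn hpE7 K i) := by
  have hi : (i : ℕ) < chevE7.rank := lt_rank hpE7 i
  intro u s hus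
  have hc : ((nn hpE7 K i : GL chevE7.Idx K) : Matrix chevE7.Idx chevE7.Idx K) =
      chevE7.nMat K (chevE7.simple i) 1 := coe_nG _ _ _
  rw [hc] at hus
  rcases s with j | s
  · rcases u with j' | u
    · rw [wt_inl, wt_inl, map_zero]
    · exfalso
      apply hus
      have hlt : chevE7.reflectRoot i u < chevE7.nroots := reflectRoot_lt hpE7.inList hi u.2
      obtain ⟨c, -, -, h2⟩ := NConj.monomial (F := K) hpE7.inList hi ⟨chevE7.reflectRoot i u, hlt⟩
      have e : (⟨chevE7.reflectRoot i (chevE7.reflectRoot i u), Reach.reflect_lt hpE7.inList hi hlt⟩ :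
          Fin chevE7.nroots) = u := by
        refine Fin.ext (vec_inj hpE7 (Reach.reflect_lt hpE7.inList hi hlt) u.2 ?_)
        show vec chevE7 7 (chevE7.reflectRoot i (chevE7.reflectRoot i u)) = vec chevE7 7 u
        rw [← rep_vec hpE7 cs7 i hlt, ← rep_vec hpE7 cs7 i u.2, ← rep_mul_apply, simple_mul_simple_self, map_one,
          Module.End.one_apply]
      have h3 := h2 (Sum.inl j)
      rw [if_neg (by simp)] at h3
      rw [← h3]
      congr 1
      exact congrArg Sum.inr e.symm
  · obtain ⟨c, -, h1, -⟩ := NConj.monomial (F := K) hpE7.inList hi s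
    rw [h1 u] at hus
    by_cases hu : u = Sum.inr ⟨chevE7.reflectRoot i s, Reach.reflect_lt hpE7.inList hi s.2⟩
    · rw [hu, wt_inr, wt_inr, rep_vec hpE7 cs7 i s.2]
    · rw [if_neg hu] at hus
      exact absurd rfl hus

/-- the representative of a simple reflection -/
noncomputable abbrev nc (K : Type u) [Field K] (i : Fin 7) : ↥(chevE7.group K) := ⟨nn hpE7 K i, nn_mem_group hpE7 i⟩

theorem mon_of_rp {hN : NSys CoxeterMatrix.E₇ (TT chevE7 K) (nc K)} {w : CoxeterMatrix.E₇.Group}
    {k : ↥(chevE7.group K)} (hk : Rp cs7 hN w k) : Mon w (k : GL chevE7.Idx K) := by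
  obtain ⟨ω, rfl⟩ := cs7.wordProd_surjective w
  induction ω generalizing k with
  | nil =>
    rw [wordProd_nil] at hk ⊢
    exact mon_torus (Subgroup.mem_subgroupOf.1 hk.mem_of_one)
  | cons i ω ih =>
    rw [wordProd_cons] at hk ⊢
    have h1 : Rp cs7 hN (cs7.wordProd ω) ((nc K i)⁻¹ * k) := by
      have := (rp_simple cs7 hN i).inv.mul hk
      rwa [inv_simple, ← mul_assoc, simple_mul_simple_self, one_mul] at this
    have h2 : k = nc K i * ((nc K i)⁻¹ * k) := by group
    rw [h2]
    exact (mon_nn i).mul (ih h1)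

end Cfsg.Agent.H154.PQE
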