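import Mathlib
import Cfsg.Agent.H154.PQE.Base

/-!
# S4612, `E₇(q)`, primes of orders 5 and 10: the finite checks (helper154)
-/

set_option autoImplicit false
set_option maxRecDepth 100000

namespace Cfsg.Agent.H154.PQE

open Cfsg Cfsg.Lie Cfsg.Lie.ChevalleyDatum
open Cfsg.Agent.ChevalleyStructure Cfsg.Agent.ChevalleyStructure.RootVec Cfsg.Agent.ChevalleyStructure.HMatDiagAll

theorem nroots_eq : chevE7.nroots = 126 := by decide +kernel
theorem rank_eq : chevE7.rank = 7 := by decide +kernel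

/-- the five roots with coefficient 3 at the fifth simple root -/
def io (i : Fin 5) : ℕ := [118, 122, 123, 124, 125].getD i 0

/-- their negatives -/
def ion (i : Fin 5) : ℕ := 125 - io i

theorem io_lt : ∀ i, io i < chevE7.nroots := by decide +kernel
theorem ion_lt : ∀ i, ion i < chevE7.nroots := by decide +kernel
theorem ion_eq : ∀ i, ion i = chevE7.neg (io i) := by decide +kernel
theorem io_inj : Function.Injective io := by unfold Function.Injective; decide +kernel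

theorem io_level : ∀ s < 126, rt chevE7 s 4 = 3 → ∃ i, io i = s := by decide +kernel
theorem level_io : ∀ i, rt chevE7 (io i) 4 = 3 := by decide +kernel

/-- the root `β_i - β_j` -/
def rij (i j : Fin 5) : ℕ :=
  ([[0, 47, 46, 42, 26], [78, 0, 56, 51, 30], [79, 69, 0, 52, 31], [83, 74, 73, 0, 32], [99, 95, 94, 93, 0]].getD i []).getD j 0

/-- the coefficient of `e_{β_i}` in `x_r(t) e_{β_j}` -/
def cf (r : ℕ) (i j : Fin 5) : ℤ := ((chevE7.chainCoeff r (io j) (io i)).map Prod.snd).sum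

/-- the same for the negatives -/
def cfn (r : ℕ) (i j : Fin 5) : ℤ := ((chevE7.chainCoeff r (ion j) (ion i)).map Prod.snd).sum

theorem chain_one : ∀ r < 126, rt chevE7 r 4 = 0 → ∀ i j : Fin 5,
    (chevE7.chainCoeff r (io j) (io i)).all (fun km => km.1 == 1) = true ∧
    (chevE7.chainCoeff r (ion j) (ion i)).all (fun km => km.1 == 1) = true ∧ cfn r i j = -cf r j i := by
  decide +kernel

theorem rij_spec : ∀ i j : Fin 5, i ≠ j → rij i j < chevE7.nroots ∧ rt chevE7 (rij i j) 4 = 0 ∧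
    (∀ k : Fin 7, rt chevE7 (io i) k = rt chevE7 (io j) k + rt chevE7 (rij i j) k) ∧
    (cf (rij i j) i j = 1 ∨ cf (rij i j) i j = -1) ∧
    ∀ i' j' : Fin 5, ¬ (i' = i ∧ j' = j) → cf (rij i j) i' j' = 0 := by decide +kernel

theorem rij_simple : rij 4 3 = chevE7.simple 0 ∧ rij 1 0 = chevE7.simple 1 ∧ rij 3 2 = chevE7.simple 2 ∧
    rij 2 1 = chevE7.simple 3 := by decide +kernel

theorem expo_neg : ∀ r < 126, ∀ i : Fin 5, expo chevE7 r (ion i) = -expo chevE7 r (io i) := by decide +kernel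

theorem rt_bound : ∀ r < 126, -3 ≤ rt chevE7 r 4 ∧ rt chevE7 r 4 ≤ 3 := by decide +kernel

/-- the Gram matrix of the coordinates 4, 5, 6 -/
theorem gram : (∑ r : Fin 126, rt chevE7 r 4 * rt chevE7 r 4) = 270 ∧
    (∑ r : Fin 126, rt chevE7 r 4 * rt chevE7 r 5) = 180 ∧
    (∑ r : Fin 126, rt chevE7 r 4 * rt chevE7 r 6) = 90 ∧
    (∑ r : Fin 126, rt chevE7 r 5 * rt chevE7 r 5) = 144 ∧
    (∑ r : Fin 126, rt chevE7 r 5 * rt chevE7 r 6) = 72 ∧
    (∑ r : Fin 126, rt chevE7 r 6 * rt chevE7 r 6) = 54 := by decide +kernel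

/-- a reduced word of the longest element -/
def w0word : List (Fin 7) := (List.replicate 9 [0, 1, 2, 3, 4, 5, 6]).flatten

theorem w0_check : ∀ k : Fin 7, w0word.foldr (fun (i : Fin 7) r => chevE7.reflectRoot (i : ℕ) r) (chevE7.simple (k : ℕ)) =
    chevE7.neg (chevE7.simple (k : ℕ)) := by decide +kernel

theorem quad_aux : ∀ a b c : Fin 7, 270 * ((a : ℕ) - 3 : ℤ) * ((a : ℕ) - 3 : ℤ) + 360 * ((a : ℕ) - 3 : ℤ) * ((b : ℕ) - 3 : ℤ) +
    180 * ((a : ℕ) - 3 : ℤ) * ((c : ℕ) - 3 : ℤ) + 144 * ((b : ℕ) - 3 : ℤ) * ((b : ℕ) - 3 : ℤ) +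
    144 * ((b : ℕ) - 3 : ℤ) * ((c : ℕ) - 3 : ℤ) + 54 * ((c : ℕ) - 3 : ℤ) * ((c : ℕ) - 3 : ℤ) = 270 →
    (((a : ℕ) - 3 : ℤ) = 1 ∨ ((a : ℕ) - 3 : ℤ) = -1) ∧ ((b : ℕ) - 3 : ℤ) = 0 ∧ ((c : ℕ) - 3 : ℤ) = 0 := by
  decide +kernel

theorem quad {a b c : ℤ} (ha : -3 ≤ a ∧ a ≤ 3) (hb : -3 ≤ b ∧ b ≤ 3) (hc : -3 ≤ c ∧ c ≤ 3)
    (h : 270 * a * a + 360 * a * b + 180 * a * c + 144 * b * b + 144 * b * c + 54 * c * c = 270) :
    (a = 1 ∨ a = -1) ∧ b = 0 ∧ c = 0 := by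
  have key : ∀ x : ℤ, -3 ≤ x ∧ x ≤ 3 → ∃ y : Fin 7, ((y : ℕ) - 3 : ℤ) = x := by
    intro x hx
    refine ⟨⟨(x + 3).toNat, by omega⟩, ?_⟩
    show (((x + 3).toNat : ℕ) : ℤ) - 3 = x
    omega
  obtain ⟨a', rfl⟩ := key a ha
  obtain ⟨b', rfl⟩ := key b hb
  obtain ⟨c', rfl⟩ := key c hc
  exact quad_aux a' b' c' h

theorem cf_sq : ∀ r < 126, rt chevE7 r 4 = 0 → ∀ i j : Fin 5, ∑ k, cf r i k * cf r k j = 0 := by decide +kernel

end Cfsg.Agent.H154.PQE
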