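import Mathlib
import Cfsg.Agent.H154.PQE.Tab
import Cfsg.Agent.Nodes.LeviDec
import Cfsg.Agent.H739.PQ.E7.Defs

/-!
# S4612, `E₇(q)`, primes of orders 5 and 10: the blocks of level 3 and -3 (helper154)
-/

set_option autoImplicit false
set_option linter.unusedSectionVars false
set_option maxRecDepth 100000

namespace Cfsg.Agent.H154.PQE

open CoxeterSystem Cfsg Cfsg.Lie Cfsg.Lie.ChevalleyDatum
open Cfsg.Agent.ChevalleyStructure Cfsg.Agent.ChevalleyStructure.Elts Cfsg.Agent.ChevalleyStructure.CoxeterGeom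
  Cfsg.Agent.ChevalleyStructure.CoxeterGeomTypes Cfsg.Agent.ChevalleyStructure.RootVec
  Cfsg.Agent.ChevalleyStructure.RootVecTab Cfsg.Agent.ChevalleyStructure.NPerm
open Cfsg.Agent.Tits.Roots Cfsg.Agent.Tits.Core Cfsg.Agent.Nodes Cfsg.Agent.Nodes.Reps Cfsg.Agent.Nodes.BNOf
  Cfsg.Agent.Nodes.RGDChev Cfsg.Agent.H35.ExcIdx Cfsg.Agent.Nodes.StabComb Cfsg.Agent.Nodes.Bruhat
  Cfsg.Agent.Nodes.LeviDec Cfsg.Agent.H739.PQ.E7

universe u

variable {K : Type u} [Field K]

/-- the coefficient at the fifth simple root -/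
def lev : (Fin 7 → ℤ) →+ ℤ := Pi.evalAddMonoidHom (fun _ => ℤ) 4

theorem lev_apply (x : Fin 7 → ℤ) : lev x = x 4 := rfl

theorem lev_vec (r : ℕ) : lev (vec chevE7 7 r) = rt chevE7 r 4 := rfl

/-- the elements preserving the filtration by `lev` -/
abbrev FQ (K : Type u) [Field K] : Subgroup ↥(chevE7.group K) := (Fil K lev).subgroupOf (chevE7.group K)

/-- `f` lists the indices of level `c` -/
structure BlkIx (f : Fin 5 → chevE7.Idx) (c : ℤ) : Prop where
  inj : Function.Injective f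
  mem : ∀ i, lev (wt (f i)) = c
  surj : ∀ u, lev (wt u) = c → ∃ i, f i = u

/-- the block of level `c` -/
def blkM {f : Fin 5 → chevE7.Idx} {c : ℤ} (hf : BlkIx f c) : ↥(FQ K) →* Matrix (Fin 5) (Fin 5) K where
  toFun g := (((g : ↥(chevE7.group K)) : GL chevE7.Idx K) : Matrix chevE7.Idx chevE7.Idx K).submatrix f f
  map_one' := by
    change (1 : Matrix chevE7.Idx chevE7.Idx K).submatrix f f = 1
    exact Matrix.submatrix_one f hf.inj
  map_mul' := by
    intro g h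
    ext i j
    change ((((g : ↥(chevE7.group K)) : GL chevE7.Idx K) : Matrix chevE7.Idx chevE7.Idx K) *
      (((h : ↥(chevE7.group K)) : GL chevE7.Idx K) : Matrix chevE7.Idx chevE7.Idx K)) (f i) (f j) = _
    rw [Matrix.mul_apply, Matrix.mul_apply]
    symm
    refine Finset.sum_of_injOn f (fun a _ b _ e => hf.inj e) (fun _ _ => Finset.mem_univ _) ?_ (fun _ _ => rfl)
    intro u _ hu
    by_contra hne
    have h1 := mem_Fil.1 (Subgroup.mem_subgroupOf.1 g.2) (f i) u (left_ne_zero_of_mul hne)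
    have h2 := mem_Fil.1 (Subgroup.mem_subgroupOf.1 h.2) u (f j) (right_ne_zero_of_mul hne)
    rw [hf.mem] at h1 h2
    obtain ⟨k, hk⟩ := hf.surj u (le_antisymm h1 h2)
    exact hu ⟨k, by simp, hk⟩

/-- the block of level `c` as an invertible matrix -/
def blk {f : Fin 5 → chevE7.Idx} {c : ℤ} (hf : BlkIx f c) : ↥(FQ K) →* GL (Fin 5) K := (blkM hf).toHomUnits

theorem blk_apply {f : Fin 5 → chevE7.Idx} {c : ℤ} (hf : BlkIx f c) (g : ↥(FQ K)) (i j : Fin 5) :
    (blk hf g : Matrix (Fin 5) (Fin 5) K) i j =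
      (((g : ↥(chevE7.group K)) : GL chevE7.Idx K) : Matrix chevE7.Idx chevE7.Idx K) (f i) (f j) := rfl

/-- the indices of the five roots -/
def fo (i : Fin 5) : chevE7.Idx := Sum.inr ⟨io i, io_lt i⟩

/-- the indices of their negatives -/
def fn (i : Fin 5) : chevE7.Idx := Sum.inr ⟨ion i, ion_lt i⟩

theorem wt_fo (i : Fin 5) : wt (fo i) = vec chevE7 7 (io i) := rfl

theorem wt_fn (i : Fin 5) : wt (fn i) = -wt (fo i) := by
  rw [fn, wt_inr, fo, wt_inr]
  show vec chevE7 7 (ion i) = -vec chevE7 7 (io i)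
  rw [ion_eq, vec_neg hpE7 (io_lt i)]

theorem ixo : BlkIx fo 3 where
  inj i j h := io_inj (congrArg Fin.val (Sum.inr_injective h))
  mem i := level_io i
  surj := by
    rintro (u | u) hu
    · rw [wt_inl, map_zero] at hu
      exact absurd hu (by decide)
    · obtain ⟨i, hi⟩ := io_level u (u.2.trans_eq nroots_eq) hu
      exact ⟨i, congrArg Sum.inr (Fin.ext hi)⟩

theorem ixn : BlkIx fn (-3) where
  inj i j h := by
    apply ixo.inj
    refine wt_inj (neg_injective ?_) ?_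
    · rw [← wt_fn, ← wt_fn, h]
    · rw [wt_fo]
      exact vec_ne_zero (io_lt i)
  mem i := by rw [wt_fn, map_neg, ixo.mem]
  surj := by
    rintro (u | u) hu
    · rw [wt_inl, map_zero] at hu
      exact absurd hu (by decide)
    · have h1 : lev (vec chevE7 7 (chevE7.neg u)) = 3 := by
        rw [vec_neg hpE7 u.2, map_neg]
        rw [wt_inr] at hu
        rw [hu]; rfl
      obtain ⟨i, hi⟩ := ixo.surj (Sum.inr ⟨chevE7.neg u, neg_lt hpE7.inList u.2⟩) h1
      refine ⟨i, wt_inj ?_ ?_⟩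
      · rw [wt_fn, hi, wt_inr, wt_inr]
        show -vec chevE7 7 (chevE7.neg u) = _
        rw [vec_neg hpE7 u.2, _root_.neg_neg]
      · rw [wt_fn, wt_fo, neg_ne_zero]
        exact vec_ne_zero (io_lt i)

/-! ### root elements -/

/-- root elements -/
noncomputable def xg (r : ℕ) (t : K) : ↥(chevE7.group K) := ⟨xG hpE7.inList r t, xG_mem_group hpE7.inList r t⟩

theorem coe_xg {r : ℕ} (hr : r < chevE7.nroots) (t : K) :
    ((xg r t : GL chevE7.Idx K) : Matrix chevE7.Idx chevE7.Idx K) = chevE7.xMat K ⟨r, hr⟩ t := by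
  show ((xG hpE7.inList r t : GL chevE7.Idx K) : Matrix chevE7.Idx chevE7.Idx K) = _
  rw [coe_xG]
  unfold ChevalleyDatum.x
  rw [dif_pos hr]

theorem mem_XX {r : ℕ} (hr : r < chevE7.nroots) {g : ↥(chevE7.group K)} :
    g ∈ XX chevE7 7 K (vec chevE7 7 r) ↔ ∃ t, g = xg r t := by
  rw [Subgroup.mem_subgroupOf, XV_vec hpE7 K hr, mem_rootSubgroup_iff hpE7.inList]
  constructor
  · rintro ⟨t, e⟩
    exact ⟨t, Subtype.ext e⟩
  · rintro ⟨t, rfl⟩
    exact ⟨t, rfl⟩

theorem xg_mem_XX {r : ℕ} (hr : r < chevE7.nroots) (t : K) : xg r t ∈ XX chevE7 7 K (vec chevE7 7 r) :=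
  (mem_XX hr).2 ⟨t, rfl⟩

theorem XX_le_FQ {x : Fin 7 → ℤ} (hx : IsRoot cs7 hpE7.isCartan x) (h0 : 0 ≤ lev x) : XX chevE7 7 K x ≤ FQ K := by
  obtain ⟨⟨r, hr⟩, rfl⟩ := exists_idx hx
  intro g hg
  obtain ⟨t, rfl⟩ := (mem_XX hr).1 hg
  exact xG_mem_Fil hr h0 t

theorem TT_le_FQ : TT chevE7 K ≤ FQ K := fun _ hg => torus_mem_Fil (Subgroup.mem_subgroupOf.1 hg)

/-- the root elements of positive level are in the kernel of the block maps -/
theorem blk_pos {f : Fin 5 → chevE7.Idx} {c : ℤ} (hf : BlkIx f c) {x : Fin 7 → ℤ} (hx : IsRoot cs7 hpE7.isCartan x)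
    (h0 : 0 < lev x) {g : ↥(chevE7.group K)} (hg : g ∈ XX chevE7 7 K x) :
    blk hf ⟨g, XX_le_FQ hx h0.le hg⟩ = 1 := by
  obtain ⟨⟨r, hr⟩, rfl⟩ := exists_idx hx
  obtain ⟨t, rfl⟩ := (mem_XX hr).1 hg
  apply Units.ext
  ext i j
  rw [blk_apply, Units.val_one]
  show ((xg r t : GL chevE7.Idx K) : Matrix chevE7.Idx chevE7.Idx K) (f i) (f j) = _
  rw [coe_xg hr]
  by_cases hij : i = j
  · rw [hij, entry_self, Matrix.one_apply_eq]
  · rw [Matrix.one_apply_ne hij]
    by_contra h1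
    obtain ⟨m, hm, e⟩ := entry_ne ⟨r, hr⟩ t (fun e => hij (hf.inj e)) h1
    have h2 := congrArg lev e
    rw [map_add, map_zsmul, hf.mem, hf.mem, smul_eq_mul] at h2
    have h3 : 0 < (m : ℤ) * lev (vec chevE7 7 r) := mul_pos (by exact_mod_cast hm) h0
    simp only at h2
    linarith

theorem sum_map_one (l : List (ℕ × ℤ)) (hl : l.all (fun km => km.1 == 1) = true) (t : K) :
    (l.map fun km => ((km.2 : ℤ) : K) * t ^ km.1).sum = (((l.map Prod.snd).sum : ℤ) : K) * t := by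
  induction l with
  | nil => simp
  | cons a l ih =>
    rw [List.all_cons, Bool.and_eq_true, beq_iff_eq] at hl
    rw [List.map_cons, List.sum_cons, ih hl.2, List.map_cons, List.sum_cons, hl.1, pow_one, Int.cast_add, add_mul]

theorem lvl_ne {r s : ℕ} (hr : r < chevE7.nroots) (h0 : rt chevE7 r 4 = 0) (hs : rt chevE7 s 4 ≠ 0) :
    s ≠ r ∧ s ≠ chevE7.negIdx.getD r 0 := by
  constructor
  · rintro rfl
    exact hs h0
  · intro e
    apply hs
    have h1 : rt chevE7 (chevE7.neg r) 4 = -rt chevE7 r 4 := rt_neg hpE7.checked hr 4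
    rw [e]
    show rt chevE7 (chevE7.neg r) 4 = 0
    rw [h1, h0, neg_zero]

/-- the entries of the root elements of level 0 in the block of level 3 -/
theorem x_fo {r : ℕ} (hr : r < chevE7.nroots) (h0 : rt chevE7 r 4 = 0) (t : K) (i j : Fin 5) :
    chevE7.xMat K ⟨r, hr⟩ t (fo i) (fo j) = (if i = j then 1 else 0) + (cf r i j : K) * t := by
  have h3 : rt chevE7 (io j) 4 ≠ 0 := by rw [level_io]; decide
  obtain ⟨h1, h2⟩ := lvl_ne hr h0 h3
  show (if (⟨io j, io_lt j⟩ : Fin chevE7.nroots) = ⟨r, hr⟩ then (if (⟨io i, io_lt i⟩ : Fin chevE7.nroots) = ⟨r, hr⟩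
    then (1 : K) else 0) else if io j = chevE7.negIdx.getD r 0 then _ else
    (if (⟨io i, io_lt i⟩ : Fin chevE7.nroots) = ⟨io j, io_lt j⟩ then 1 else 0) +
    ((chevE7.chainCoeff r (io j) (io i)).map fun km => ((km.2 : ℤ) : K) * t ^ km.1).sum) = _
  rw [if_neg (fun e => h1 (congrArg Fin.val e)), if_neg h2,
    sum_map_one _ (chain_one r (by rwa [nroots_eq] at hr) h0 i j).1]
  congr 1
  by_cases hij : i = j
  · rw [if_pos hij, if_pos (by rw [hij])]
  · rw [if_neg hij, if_neg (fun e => hij (io_inj (congrArg Fin.val e)))]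

/-- the entries of the root elements of level 0 in the block of level -3 -/
theorem x_fn {r : ℕ} (hr : r < chevE7.nroots) (h0 : rt chevE7 r 4 = 0) (t : K) (i j : Fin 5) :
    chevE7.xMat K ⟨r, hr⟩ t (fn i) (fn j) = (if i = j then 1 else 0) - (cf r j i : K) * t := by
  have h3 : rt chevE7 (ion j) 4 ≠ 0 := by
    have := ixn.mem j
    rw [fn, wt_inr, lev_vec] at this
    rw [show rt chevE7 (ion j) 4 = -3 from this]; decide
  obtain ⟨h1, h2⟩ := lvl_ne hr h0 h3
  obtain ⟨-, h4, h5⟩ := chain_one r (by rwa [nroots_eq] at hr) h0 i j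
  show (if (⟨ion j, ion_lt j⟩ : Fin chevE7.nroots) = ⟨r, hr⟩ then (if (⟨ion i, ion_lt i⟩ : Fin chevE7.nroots) = ⟨r, hr⟩
    then (1 : K) else 0) else if ion j = chevE7.negIdx.getD r 0 then _ else
    (if (⟨ion i, ion_lt i⟩ : Fin chevE7.nroots) = ⟨ion j, ion_lt j⟩ then 1 else 0) +
    ((chevE7.chainCoeff r (ion j) (ion i)).map fun km => ((km.2 : ℤ) : K) * t ^ km.1).sum) = _
  rw [if_neg (fun e => h1 (congrArg Fin.val e)), if_neg h2, sum_map_one _ h4]
  have h6 : ((chevE7.chainCoeff r (ion j) (ion i)).map Prod.snd).sum = -cf r j i := h5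
  rw [h6, Int.cast_neg, neg_mul, sub_eq_add_neg]
  congr 1
  by_cases hij : i = j
  · rw [if_pos hij, if_pos (by rw [hij])]
  · rw [if_neg hij, if_neg (fun e => hij (ixn.inj (congrArg Sum.inr e)))]

end Cfsg.Agent.H154.PQE
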