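import Mathlib
import Cfsg.Agent.H154.PQE.Bad

/-!
# S4612, `E₇(q)`, primes of orders 5 and 10: the double cosets of the parabolic subgroup (helper154)
-/

set_option autoImplicit false
set_option linter.unusedSectionVars false
set_option maxRecDepth 100000

namespace Cfsg.Agent.H154.PQE

open CoxeterSystem Cfsg Cfsg.Lie Cfsg.Lie.ChevalleyDatum
open Cfsg.Agent.ChevalleyStructure Cfsg.Agent.ChevalleyStructure.Elts Cfsg.Agent.ChevalleyStructure.CoxeterGeom
  Cfsg.Agent.ChevalleyStructure.CoxeterGeomTypes Cfsg.Agent.ChevalleyStructure.RootVec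
  Cfsg.Agent.ChevalleyStructure.RootVecTab Cfsg.Agent.ChevalleyStructure.NPerm
open Cfsg.Agent.Tits.Roots Cfsg.Agent.Tits.Core Cfsg.Agent.Nodes Cfsg.Agent.Nodes.Reps Cfsg.Agent.Nodes.BNOf
  Cfsg.Agent.Nodes.RGDChev Cfsg.Agent.H35.ExcIdx Cfsg.Agent.Nodes.StabComb Cfsg.Agent.Nodes.Bruhat
  Cfsg.Agent.Nodes.LeviDec Cfsg.Agent.Nodes.OppDec Cfsg.Agent.Tits.Exchange Cfsg.Agent.H739.PQ.E7
open scoped Matrix

universe u

/-! ### the functionals vanishing on the roots of type `A₄` -/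

/-- an element fixing the fifth coordinate functional lies in `W_J` (proof of helper967) -/
theorem mem_WJ_of_fix : ∀ {u : CoxeterMatrix.E₇.Group}, (∀ x, lev (rep cs7 hpE7.isCartan u x) = lev x) → u ∈ WJ cs7 JQ := by
  intro u
  induction hn : cs7.length u using Nat.strong_induction_on generalizing u with
  | _ l ih =>
  intro hu
  by_cases hu1 : u = 1
  · rw [hu1]; exact one_mem _
  obtain ⟨i, hi⟩ := cs7.exists_leftDescent_of_ne_one hu1
  have hi' : cs7.length (cs7.simple i * u) < cs7.length u := hi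
  have hij : i ≠ 4 := by
    rintro rfl
    have hneg : rep cs7 hpE7.isCartan u⁻¹ (sr 4) ≤ 0 := by
      refine nonpos_of_lt cs7 hpE7.isCartan u⁻¹ 4 ?_
      rw [← cs7.length_inv u, ← cs7.length_inv (cs7.simple 4 * u), mul_inv_rev, inv_simple] at hi'
      exact hi'
    have h1 := hu (rep cs7 hpE7.isCartan u⁻¹ (sr 4))
    rw [rep_apply_inv, lev_apply, lev_apply, sr_self] at h1
    have h2 := hneg 4
    rw [← h1] at h2
    exact absurd (show (1 : ℤ) ≤ 0 from h2) (by decide)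
  have h1 := ih (cs7.length (cs7.simple i * u)) (by omega) (u := cs7.simple i * u) rfl (fun x => by
    rw [rep_mul_apply]
    exact (rep_simple_apply cs7 hpE7.isCartan i _ 4 (Ne.symm hij)).trans (hu x))
  have h2 : u = cs7.simple i * (cs7.simple i * u) := by rw [← mul_assoc, simple_mul_simple_self, one_mul]
  rw [h2]
  exact mul_mem (simple_mem_WJ cs7 hij) h1

theorem lev_bound {x : Fin 7 → ℤ} (hx : IsRoot cs7 hpE7.isCartan x) : -3 ≤ lev x ∧ lev x ≤ 3 := by
  obtain ⟨r, rfl⟩ := exists_idx hx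
  exact rt_bound r (r.2.trans_eq nroots_eq)

/-- the images of the coordinate functional constant on the five roots -/
theorem lev_pm {w : CoxeterMatrix.E₇.Group}
    (hc : ∀ i j, lev (rep cs7 hpE7.isCartan w (vec chevE7 7 (io i))) = lev (rep cs7 hpE7.isCartan w (vec chevE7 7 (io j)))) :
    (∀ x, lev (rep cs7 hpE7.isCartan w x) = lev x) ∨ ∀ x, lev (rep cs7 hpE7.isCartan w x) = -lev x := by
  -- the functional on the simple roots
  have hrij : ∀ i j, i ≠ j → lev (rep cs7 hpE7.isCartan w (vec chevE7 7 (rij i j))) = 0 := by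
    intro i j hij
    have h1 : vec chevE7 7 (rij i j) = vec chevE7 7 (io i) - vec chevE7 7 (io j) := by
      rw [vec_rij hij, add_sub_cancel_left]
    rw [h1, map_sub, map_sub, hc i j, sub_self]
  obtain ⟨e0, e1, e2, e3⟩ := rij_simple
  have hs0 : lev (rep cs7 hpE7.isCartan w (sr 0)) = 0 := by
    have := vec_simple hpE7 0
    rw [← this, show chevE7.simple ((0 : Fin 7) : ℕ) = rij 4 3 from e0.symm]
    exact hrij 4 3 (by decide)
  have hs1 : lev (rep cs7 hpE7.isCartan w (sr 1)) = 0 := by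
    have := vec_simple hpE7 1
    rw [← this, show chevE7.simple ((1 : Fin 7) : ℕ) = rij 1 0 from e1.symm]
    exact hrij 1 0 (by decide)
  have hs2 : lev (rep cs7 hpE7.isCartan w (sr 2)) = 0 := by
    have := vec_simple hpE7 2
    rw [← this, show chevE7.simple ((2 : Fin 7) : ℕ) = rij 3 2 from e2.symm]
    exact hrij 3 2 (by decide)
  have hs3 : lev (rep cs7 hpE7.isCartan w (sr 3)) = 0 := by
    have := vec_simple hpE7 3
    rw [← this, show chevE7.simple ((3 : Fin 7) : ℕ) = rij 2 1 from e3.symm]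
    exact hrij 2 1 (by decide)
  set a := lev (rep cs7 hpE7.isCartan w (sr 4)) with ha
  set b := lev (rep cs7 hpE7.isCartan w (sr 5)) with hb
  set c := lev (rep cs7 hpE7.isCartan w (sr 6)) with hcc
  have hx : ∀ x : Fin 7 → ℤ, lev (rep cs7 hpE7.isCartan w x) = x 4 * a + x 5 * b + x 6 * c := by
    intro x
    conv_lhs => rw [sum_sr x]
    rw [map_sum, map_sum, Fin.sum_univ_seven]
    simp only [map_smul, map_zsmul, smul_eq_mul]
    rw [hs0, hs1, hs2, hs3, ← ha, ← hb, ← hcc]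
    ring
  -- the sum of the squares
  have hf : ∀ r : Fin 126, ∃ s : Fin 126, vec chevE7 7 s = rep cs7 hpE7.isCartan w (vec chevE7 7 r) := by
    intro r
    have hr : (r : ℕ) < chevE7.nroots := r.2.trans_eq nroots_eq.symm
    obtain ⟨s, hs⟩ := exists_idx ((isRoot_vec hpE7 cs7 hr).act w)
    exact ⟨⟨s, s.2.trans_eq nroots_eq⟩, hs⟩
  choose f hf using hf
  have hinj : Function.Injective f := by
    intro r s hrs
    have h1 : rep cs7 hpE7.isCartan w (vec chevE7 7 r) = rep cs7 hpE7.isCartan w (vec chevE7 7 s) := by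
      rw [← hf, ← hf, hrs]
    have h2 : vec chevE7 7 r = vec chevE7 7 s := by
      have h3 := congrArg (rep cs7 hpE7.isCartan w⁻¹) h1
      rwa [rep_inv_apply, rep_inv_apply] at h3
    exact Fin.ext (vec_inj hpE7 (r.2.trans_eq nroots_eq.symm) (s.2.trans_eq nroots_eq.symm) h2)
  have hsum : ∑ r : Fin 126, lev (rep cs7 hpE7.isCartan w (vec chevE7 7 r)) * lev (rep cs7 hpE7.isCartan w (vec chevE7 7 r)) =
      ∑ r : Fin 126, rt chevE7 r 4 * rt chevE7 r 4 := by
    rw [← (Finite.injective_iff_bijective.1 hinj).sum_comp (fun r : Fin 126 => rt chevE7 r 4 * rt chevE7 r 4)]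
    refine Finset.sum_congr rfl fun r _ => ?_
    rw [← hf r]
    rfl
  obtain ⟨g1, g2, g3, g4, g5, g6⟩ := gram
  have hq : 270 * a * a + 360 * a * b + 180 * a * c + 144 * b * b + 144 * b * c + 54 * c * c = 270 := by
    rw [g1] at hsum
    refine Eq.trans ?_ hsum
    have h1 : ∀ r : Fin 126, lev (rep cs7 hpE7.isCartan w (vec chevE7 7 r)) * lev (rep cs7 hpE7.isCartan w (vec chevE7 7 r)) =
        rt chevE7 r 4 * rt chevE7 r 4 * (a * a) + rt chevE7 r 4 * rt chevE7 r 5 * (2 * a * b) +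
        rt chevE7 r 4 * rt chevE7 r 6 * (2 * a * c) + rt chevE7 r 5 * rt chevE7 r 5 * (b * b) +
        rt chevE7 r 5 * rt chevE7 r 6 * (2 * b * c) + rt chevE7 r 6 * rt chevE7 r 6 * (c * c) := by
      intro r
      rw [hx]
      show (rt chevE7 r 4 * a + rt chevE7 r 5 * b + rt chevE7 r 6 * c) *
        (rt chevE7 r 4 * a + rt chevE7 r 5 * b + rt chevE7 r 6 * c) = _
      ring
    rw [Finset.sum_congr rfl fun r _ => h1 r]
    simp only [Finset.sum_add_distrib, ← Finset.sum_mul]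
    rw [g1, g2, g3, g4, g5, g6]
    ring
  have hb' : ∀ k : Fin 7, -3 ≤ lev (rep cs7 hpE7.isCartan w (sr k)) ∧ lev (rep cs7 hpE7.isCartan w (sr k)) ≤ 3 :=
    fun k => lev_bound ((isRoot_sr cs7 hpE7.isCartan k).act w)
  obtain ⟨h1, h2, h3⟩ := quad (hb' 4) (hb' 5) (hb' 6) hq
  rw [← hb] at h2
  rw [← hcc] at h3
  rcases h1 with h1 | h1
  · left
    intro x
    rw [← ha] at h1
    rw [hx, h1, h2, h3, lev_apply]
    ring
  · right
    intro x
    rw [← ha] at h1
    rw [hx, h1, h2, h3, lev_apply]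
    ring

variable {K : Type u} [Field K]

variable {p : ℕ} (R : RGD cs7 hpE7.isCartan p (TT chevE7 K) (nc K) (XX chevE7 7 K))

include R

/-- **the double cosets** -/
theorem cases (a : ↥(chevE7.group K)) : ∃ b ∈ QQ K, ∃ c ∈ QQ K, ∃ k, a = b * k * c ∧
    (k = 1 ∨ Bad (rho K) k ∨ Opp (rho K) k) := by
  have hfin := finite_W hpE7 cs7
  obtain ⟨w, b₁, hb₁, k, hk, b₂, hb₂, e⟩ := (mem_GG R (g := a)).1 (by rw [GG_eq_top hpE7 K cs7]; exact Subgroup.mem_top _)
  by_cases hc : ∀ i j, lev (rep cs7 hpE7.isCartan w⁻¹ (vec chevE7 7 (io i))) =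
      lev (rep cs7 hpE7.isCartan w⁻¹ (vec chevE7 7 (io j)))
  · rcases lev_pm hc with h1 | h1
    · have hw : w ∈ WJ cs7 JQ := by
        have := mem_WJ_of_fix h1
        rwa [inv_mem_iff] at this
      refine ⟨a, ?_, 1, one_mem _, 1, by group, Or.inl rfl⟩
      exact (mem_PJ_iff_cell R).2 ⟨w, hw, b₁, hb₁, k, hk, b₂, hb₂, e⟩
    · obtain ⟨w0, hw0⟩ := exists_w0
      obtain ⟨k0, hk0⟩ := exists_rp cs7 R.nsys w0
      have hw : w0⁻¹ * w ∈ WJ cs7 JQ := by
        have h2 : (w0⁻¹ * w)⁻¹ ∈ WJ cs7 JQ := by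
          apply mem_WJ_of_fix
          intro x
          rw [mul_inv_rev, inv_inv, rep_mul_apply, hw0, map_neg, map_neg, h1, _root_.neg_neg]
        rwa [inv_mem_iff] at h2
      refine ⟨b₁, B_le_PJ hb₁, k0⁻¹ * k * b₂, mul_mem (LJ_le_PJ (rp_mem_LJ R hw (hk0.inv.mul hk))) (B_le_PJ hb₂),
        k0, by rw [e]; group, Or.inr (Or.inr (opp_of_rp R hw0 hk0))⟩
  · push Not at hc
    obtain ⟨i, j, hij⟩ := hc
    exact ⟨b₁, B_le_PJ hb₁, b₂, B_le_PJ hb₂, k, e, Or.inr (Or.inl (bad_of R hk hij))⟩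

theorem dat : Dat (rho K) where
  cases := cases R
  sl := fun _ hg => by
    obtain ⟨z, -, e⟩ := exists_of_det hg
    exact ⟨z, e⟩

end Cfsg.Agent.H154.PQE
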