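import Mathlib
import Cfsg.Agent.H154.PQE.Cases
import Cfsg.Agent.H317.PQ.Exc
import Cfsg.Agent.S0242
import Cfsg.Agent.S1035

/-!
# S4612, `E₇(q)`, primes of orders 5 and 10: the orders, `exists_dat` (task T5 of helper739, helper154)
-/

set_option autoImplicit false
set_option linter.unusedSectionVars false
set_option maxRecDepth 100000

namespace Cfsg.Agent.H154.PQE

open CoxeterSystem Cfsg Cfsg.Lie Cfsg.Lie.ChevalleyDatum
open Cfsg.Agent.ChevalleyStructure Cfsg.Agent.ChevalleyStructure.Elts Cfsg.Agent.ChevalleyStructure.CoxeterGeom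
  Cfsg.Agent.ChevalleyStructure.CoxeterGeomTypes Cfsg.Agent.ChevalleyStructure.RootVec
  Cfsg.Agent.ChevalleyStructure.RootVecTab Cfsg.Agent.ChevalleyStructure.NPerm
open Cfsg.Agent.Tits.Roots Cfsg.Agent.Tits.Core Cfsg.Agent.Nodes Cfsg.Agent.Nodes.Reps Cfsg.Agent.Nodes.BNOf
  Cfsg.Agent.Nodes.RGDChev Cfsg.Agent.H35.ExcIdx Cfsg.Agent.H35.Poin Cfsg.Agent.Nodes.StabComb
  Cfsg.Agent.Nodes.Bruhat Cfsg.Agent.Nodes.LeviDec Cfsg.Agent.Nodes.OppDec Cfsg.Agent.Tits.Exchange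
  Cfsg.Agent.H739.PQ.E7 Cfsg.Agent.H317.PQ

universe u

theorem path_A4 : PathOK CoxeterMatrix.E₇ [0, 1, 2, 3, 5, 6] [0, 2, 3, 1] [5, 6] 0 := by constructor <;> decide +kernel
theorem path_A2 : PathOK CoxeterMatrix.E₇ [5, 6] [5, 6] [] 0 := by constructor <;> decide +kernel

section Card

variable {K : Type u} [Field K] [Fintype K] {r f : ℕ} [Fact r.Prime] [CharP K r]

/-- the order of the parabolic subgroup -/
theorem card_QQ (R : RGD cs7 hpE7.isCartan r (TT chevE7 K) (nc K) (XX chevE7 7 K)) : ∃ a : ℕ,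
    Nat.gcd 2 (Fintype.card K - 1) * Nat.card ↥(QQ K) =
      r ^ a * (Fintype.card K - 1) ^ 7 * (FA 4 (Fintype.card K) * FA 2 (Fintype.card K)) := by
  have hfin := finite_W hpE7 cs7
  have hJ : (JQ : Set (Fin 7)) = {j | j ∈ ([0, 1, 2, 3, 5, 6] : List (Fin 7))} := by
    ext j; revert j; decide
  have hc : ∀ i, Nat.card (XX chevE7 7 K (sr i)) = Fintype.card K := fun i => by
    rw [card_XX hpE7 K cs7 (isRoot_sr _ _ i), Nat.card_eq_fintype_card]
  have h1 := card_step R path_A4 (fun i _ => hc i) (card_step R path_A2 (fun i _ => hc i) (card_nil R))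
  obtain ⟨a, ha⟩ := (IsPGroup.iff_card (p := r)).1 R.isPGroup_Upos
  refine ⟨a, ?_⟩
  have hT : Nat.gcd 2 (Fintype.card K - 1) * Nat.card (TT chevE7 K) = (Fintype.card K - 1) ^ 7 := by
    have h2 : Nat.card (TT chevE7 K) = Nat.card (chevE7.diagonalSubgroup K) :=
      Nat.card_congr (Subgroup.subgroupOfEquivOfLe (diagonal_le_group hpE7.inList K)).toEquiv
    rw [h2]
    exact Cfsg.Agent.S1035.result rfl (chevE7, Nat.gcd 2 (Fintype.card K - 1)) (by simp)
  have h2 : Nat.card ↥(QQ K) = Nat.card ↥(PJ cs7 hpE7.isCartan (TT chevE7 K) (XX chevE7 7 K)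
      {j | j ∈ ([0, 1, 2, 3, 5, 6] : List (Fin 7))}) := by
    rw [← hJ]
  rw [h2, h1, card_B' R, ha, ← hT]
  show _ * (FA 4 _ * (FA 2 _ * 1) * _) = _
  ring

/-- `q⁵ - 1` divides the order of the image -/
theorem dvd_range : Fintype.card K ^ 5 - 1 ∣ Nat.card ↥(rho K).range := by
  have h1 : Nat.card (Matrix.SpecialLinearGroup (Fin 5) K) ∣ Nat.card ↥(rho K).range := by
    have h2 : (Matrix.SpecialLinearGroup.toGL (n := Fin 5) (R := K)).range ≤ (rho K).range := by
      rintro _ ⟨s, rfl⟩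
      obtain ⟨z, -, e⟩ := exists_of_det (g := Matrix.SpecialLinearGroup.toGL s) s.2
      exact ⟨z, e⟩
    have h3 := Subgroup.card_dvd_of_le h2
    rwa [← Nat.card_congr (MonoidHom.ofInjective (f := Matrix.SpecialLinearGroup.toGL (n := Fin 5) (R := K))
      Matrix.SpecialLinearGroup.toGL_injective).toEquiv] at h3
  refine dvd_trans ?_ h1
  have h2 := Cfsg.Agent.S0242.result (F := K) rfl 5 (by norm_num)
  have hq : 2 ≤ Fintype.card K := Fintype.one_lt_card
  generalize Fintype.card K = q at h2 hq ⊢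
  rw [Fin.prod_univ_five] at h2
  simp only [Fin.val_zero, Fin.val_one, pow_zero] at h2
  have h3 : q ^ 5 - q ^ ((4 : Fin 5) : ℕ) = (q - 1) * q ^ 4 := by
    show q ^ 5 - q ^ 4 = _
    rw [Nat.sub_mul, one_mul]
    congr 1
    ring
  rw [h3] at h2
  refine ⟨(q ^ 5 - q ^ 1) * (q ^ 5 - q ^ ((2 : Fin 5) : ℕ)) * (q ^ 5 - q ^ ((3 : Fin 5) : ℕ)) * q ^ 4, ?_⟩
  refine Nat.eq_of_mul_eq_mul_left (show 0 < q - 1 by omega) ?_
  rw [h2]
  ring

end Card

theorem pow_sub_one {q : ℕ} (hq : 1 ≤ q) (n : ℕ) : q ^ n - 1 = (q - 1) * ∑ t ∈ Finset.range n, q ^ t := by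
  obtain ⟨x, rfl⟩ : ∃ x, q = x + 1 := ⟨_, (Nat.sub_add_cancel hq).symm⟩
  rw [Nat.add_sub_cancel, mul_comm, ← geom_sum_mul_add x n, Nat.add_sub_cancel]

/-- a prime divisor of a sum of powers -/
theorem ord_dvd_of {q l n : ℕ} (hq : 1 ≤ q) (h : l ∣ ∑ t ∈ Finset.range n, q ^ t) : ord q l ∣ n := by
  rw [ord_dvd hq, pow_sub_one hq]
  exact h.mul_left _

theorem not_dvd_q {q l : ℕ} (hl : l.Prime) (h : ord q l ≠ 0) : ¬ l ∣ q := by
  intro h1
  apply h
  have : Fact l.Prime := ⟨hl⟩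
  rw [ord, (ZMod.natCast_eq_zero_iff q l).2 h1, orderOf_zero]

/-- **T5** -/
theorem exists_dat (K : Type) [Field K] [Fintype K] :
    ∃ (Q : Subgroup ↥(Cfsg.Lie.chevE7.group K)) (ρ : ↥Q →* GL (Fin 5) K), Dat ρ ∧
      (∀ p : ℕ, p.Prime → ord (Fintype.card K) p = 5 → ¬ p ∣ Nat.card ρ.ker) ∧
      (∀ l : ℕ, l.Prime → ord (Fintype.card K) l = 10 → ¬ l ∣ Nat.card Q) := by
  obtain ⟨r, hchar⟩ := CharP.exists K
  obtain ⟨f, hr, hK⟩ := FiniteField.card K r
  have hfact : Fact r.Prime := ⟨hr⟩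
  have R := rgd (K := K) hpE7 cs7 r
  refine ⟨QQ K, rho K, dat R, ?_, ?_⟩
  all_goals
    obtain ⟨a, ha⟩ := card_QQ R
    have hdr := dvd_range (K := K)
    have hkr := Subgroup.card_mul_index (rho K).ker
    rw [Subgroup.index_ker] at hkr
    have hq : 1 ≤ Fintype.card K := Fintype.card_pos
    have hq2 : 2 ≤ Fintype.card K := Fintype.one_lt_card
    have hrq : r ∣ Fintype.card K := by
      rw [hK]
      exact dvd_pow_self r f.ne_zero
    generalize Fintype.card K = q at ha hdr hq hq2 hrq ⊢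
    simp only [FA, Finset.prod_range_succ, Finset.prod_range_zero, one_mul] at ha
    norm_num only at ha
  · intro p hp ho hdvd
    have hpq := not_dvd_q hp (q := q) (by rw [ho]; decide)
    have h1 : p * (q ^ 5 - 1) ∣ Nat.gcd 2 (q - 1) * Nat.card ↥(QQ K) := by
      rw [← hkr]
      exact (mul_dvd_mul hdvd hdr).mul_left _
    rw [ha, pow_sub_one hq 5] at h1
    have h2 : p * ((q - 1) * ∑ t ∈ Finset.range 5, q ^ t) ∣ ((r ^ a * (q - 1) ^ 6) *
        ((∑ t ∈ Finset.range 2, q ^ t) * (∑ t ∈ Finset.range 3, q ^ t) * (∑ t ∈ Finset.range 4, q ^ t) *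
        ((∑ t ∈ Finset.range 2, q ^ t) * (∑ t ∈ Finset.range 3, q ^ t)))) * ((q - 1) * ∑ t ∈ Finset.range 5, q ^ t) := by
      refine h1.trans (dvd_of_eq ?_)
      ring
    have h3 : 0 < (q - 1) * ∑ t ∈ Finset.range 5, q ^ t := by
      refine Nat.mul_pos (by omega) (Finset.sum_pos (fun i _ => pow_pos (by omega) i) ⟨0, by simp⟩)
    have h4 := Nat.dvd_of_mul_dvd_mul_right h3 h2
    have hs : ∀ n, p ∣ ∑ t ∈ Finset.range n, q ^ t → 5 ∣ n := fun n h => by
      rw [← ho]; exact ord_dvd_of hq h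
    rcases hp.dvd_mul.1 h4 with h5 | h5
    · rcases hp.dvd_mul.1 h5 with h6 | h6
      · exact hpq ((hp.dvd_of_dvd_pow h6).trans hrq)
      · have h7 := (ord_eq_one hq).2 (hp.dvd_of_dvd_pow h6)
        omega
    · rcases hp.dvd_mul.1 h5 with h6 | h6
      · rcases hp.dvd_mul.1 h6 with h7 | h7
        · rcases hp.dvd_mul.1 h7 with h8 | h8
          · exact absurd (hs 2 h8) (by decide)
          · exact absurd (hs 3 h8) (by decide)
        · exact absurd (hs 4 h7) (by decide)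
      · rcases hp.dvd_mul.1 h6 with h8 | h8
        · exact absurd (hs 2 h8) (by decide)
        · exact absurd (hs 3 h8) (by decide)
  · intro p hp ho hdvd
    have hpq := not_dvd_q hp (q := q) (by rw [ho]; decide)
    have h1 : p ∣ Nat.gcd 2 (q - 1) * Nat.card ↥(QQ K) := hdvd.mul_left _
    rw [ha] at h1
    have hs : ∀ n, p ∣ ∑ t ∈ Finset.range n, q ^ t → 10 ∣ n := fun n h => by
      rw [← ho]; exact ord_dvd_of hq h
    rcases hp.dvd_mul.1 h1 with h5 | h5
    · rcases hp.dvd_mul.1 h5 with h6 | h6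
      · exact hpq ((hp.dvd_of_dvd_pow h6).trans hrq)
      · have h7 := (ord_eq_one hq).2 (hp.dvd_of_dvd_pow h6)
        omega
    · rcases hp.dvd_mul.1 h5 with h6 | h6
      · rcases hp.dvd_mul.1 h6 with h7 | h7
        · rcases hp.dvd_mul.1 h7 with h8 | h8
          · rcases hp.dvd_mul.1 h8 with h9 | h9
            · exact absurd (hs 2 h9) (by decide)
            · exact absurd (hs 3 h9) (by decide)
          · exact absurd (hs 4 h8) (by decide)
        · exact absurd (hs 5 h7) (by decide)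
      · rcases hp.dvd_mul.1 h6 with h8 | h8
        · exact absurd (hs 2 h8) (by decide)
        · exact absurd (hs 3 h8) (by decide)

end Cfsg.Agent.H154.PQE
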